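import Cfsg.Agent.H0.ES43D.D
import Cfsg.Agent.H0.MWD4.Main
set_option maxRecDepth 100000
set_option Elab.async false
set_option linter.unusedSectionVars false
namespace H0.ES43D
open H0 BN 
theorem defs_ok : DefsOK R.p defs 14 := defsOK_of_chk c7
universe u
variable {G : Type u} [Group G] [Finite G] (m0 : Model G) (h0 : m0.R = H0.MS43.R)
noncomputable def m : Model G := m0.ext (lg := nat_lit 6) (N := nat_lit 64) (l := H0.MS43.nl) h0 nl nl_ok 14 rfl defs defs_ok (by decide +kernel)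
theorem mR : (m m0 h0).R = R := rfl
variable (hb : m0.pst [10, 2, 1, 0] = ⊥) (hc : Nat.card G = 25920)
include h0 hb hc
theorem base : (m m0 h0).pst [10, 2, 1, 0] = ⊥ := hb
omit hb hc in
theorem geq {x : ℕ} (h : x < 14) : (m m0 h0).g x = m0.g x := m0.ext_g h0 _ _ _ _ _ _ _ h
omit hb hc in
theorem lc_ok : (m m0 h0).ChainOK lc [] := ((m m0 h0).chain_cons [0, 1, 0, 1, 0, 1, 0, 0] (Model.via _ (mR m0 h0) (fun R => Model.fixP R [] [[19, 18], [14, 18, 22, 21]]) c4) (Model.via _ (mR m0 h0) (fun R => Model.growP R [[19, 18], [14, 18, 22, 21]] [0, 1, 0, 1, 0, 1, 0, 0] 0 32) c5) ((m m0 h0).chain_cons [0, 1] (Model.via _ (mR m0 h0) (fun R => Model.fixP R [0] [[16, 14, 16, 19, 19, 22], [16, 14, 16, 21]]) c2) (Model.via _ (mR m0 h0) (fun R => Model.growP R [[16, 14, 16, 19, 19, 22], [16, 14, 16, 21]] [0, 1] 1 3) c3) ((m m0 h0).chain_cons [0] (Model.via _ (mR m0 h0) (fun R => Model.fixP R [1, 0] [[19, 19, 18, 22], []]) c0) (Model.via _ (mR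 m0 h0) (fun R => Model.growP R [[19, 19, 18, 22], []] [0] 2 2) c1) ((m m0 h0).chain_nil _))))
theorem iso : ∃ K : Subgroup G, Nonempty (PG 9 H0.MWD4.B ≃* K) :=
  ⟨_, iso_low _ 14 (all_take_done (all_take_step (all_take_zero _ ((H0.MWD4.B.map (sh 14)).map fun r => (r, ([] : List ℕ)))) ((m m0 h0).pairs_of (base m0 h0 hb hc) (Model.via _ (mR m0 h0) (fun R => pairsB R [10, 2, 1, 0] ((((H0.MWD4.B.map (sh 14)).map fun r => (r, ([] : List ℕ))).drop 0).take 27)) c6))) (by decide +kernel)) (by decide +kernel) (H0.MWD4.upper (Pres.pg _ _))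
    ((m m0 h0).chain_card (lc_ok m0 h0) ((gen_le_sh _ (by decide +kernel)).trans (gen_sh _ 14 (lets 9)).le))⟩
end H0.ES43D
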